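import Cfsg.Agent.H390.L8.Dual

/-!
# `E₈ (q)`, box K3 of `H596.L8` (helper390): the generators of `SA K` on the five roots of `R`

* `R2 : Fin 5 ≃ {i // InR 1 i}` (the roots with the indices 200, 210, 214, 219, 226), `card_R`;
* `gen_succ`, `gen_pred` : the elementary matrices at neighbours are blocks of elements of `SA K`.
-/

set_option autoImplicit false
set_option linter.unusedSectionVars false

namespace Cfsg.Agent.H390.L8

open Cfsg CoxeterSystem Cfsg.Agent.ChevalleyStructure.CoxeterGeom Cfsg.Agent.Tits.Roots Cfsg.Agent.Tits.Core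
  Cfsg.Agent.Tits.RootComb Cfsg.Agent.Nodes.Reps Cfsg.Agent.Nodes.BNOf
  Cfsg.Agent.Nodes.StabComb Cfsg.Agent.Nodes.Bruhat Cfsg.Agent.Nodes.LeviDec Cfsg.Agent.H35.Poin
  Cfsg.Agent.H35.PoinNum Cfsg.Agent.H35.ExcIdx
  Cfsg.Agent.ChevalleyStructure.CoxeterGeomTypes Cfsg.Lie
open Cfsg.Agent.Nodes.RGDChev Cfsg.Agent.ChevalleyStructure.NPerm
open Cfsg.Agent.ChevalleyStructure Cfsg.Agent.ChevalleyStructure.Elts
open Cfsg.Agent.ChevalleyStructure.Columns Cfsg.Agent.ChevalleyStructure.RootVec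
open Cfsg.Agent.H596.L8

universe u

variable {K : Type u} [Field K]

theorem card_R : Fintype.card {i // InR 1 i} = 5 := by decide +kernel

/-- the roots of `R` -/
def r5 (a : Fin 5) : ℕ := ![200, 210, 214, 219, 226] a

theorem r5_lt (a : Fin 5) : r5 a < chevE8.nroots := by
  revert a
  decide +kernel

/-- the nodes -/
def nd (i : Fin 4) : Fin 8 := ![1, 3, 2, 0] i

theorem nd_lt (i : Fin 4) : (nd i : ℕ) < 4 := by
  revert i
  decide +kernel

theorem InR_r5 (a : Fin 5) : InR 1 (Sum.inr ⟨r5 a, r5_lt a⟩ : chevE8.Idx) := by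
  revert a
  decide +kernel

theorem r5_inj : Function.Injective r5 := by
  intro a b
  revert a b
  decide +kernel

/-- the coordinates of `R` -/
def R2f (a : Fin 5) : {i : chevE8.Idx // InR 1 i} := ⟨Sum.inr ⟨r5 a, r5_lt a⟩, InR_r5 a⟩

theorem R2f_bij : Function.Bijective R2f := by
  rw [Fintype.bijective_iff_injective_and_card]
  refine ⟨fun a b h => ?_, ?_⟩
  · have h1 := congrArg Subtype.val h
    have h2 := Sum.inr.inj h1
    exact r5_inj (congrArg Fin.val h2)
  · rw [card_R, Fintype.card_fin]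

/-- the coordinates of `R` -/
noncomputable def R2 : Fin 5 ≃ {i : chevE8.Idx // InR 1 i} := Equiv.ofBijective R2f R2f_bij

theorem R2_apply (a : Fin 5) : (R2 a : {i : chevE8.Idx // InR 1 i}) = ⟨Sum.inr ⟨r5 a, r5_lt a⟩, InR_r5 a⟩ := rfl

theorem ch_pos : ∀ (i : Fin 4) (a b : Fin 5), chevE8.chainCoeff (chevE8.simple (nd i)) (r5 b) (r5 a) =
    if i.succ = a ∧ i.castSucc = b then [(1, 1)] else [] := by
  decide +kernel

theorem ch_neg : ∀ (i : Fin 4) (a b : Fin 5), chevE8.chainCoeff (chevE8.neg (chevE8.simple (nd i))) (r5 b) (r5 a) =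
    if i.castSucc = a ∧ i.succ = b then [(1, 1)] else [] := by
  decide +kernel

theorem ne_pos : ∀ (i : Fin 4) (b : Fin 5), r5 b ≠ chevE8.simple (nd i) ∧
    r5 b ≠ chevE8.negIdx.getD (chevE8.simple (nd i)) 0 := by
  decide +kernel

theorem ne_neg : ∀ (i : Fin 4) (b : Fin 5), r5 b ≠ chevE8.neg (chevE8.simple (nd i)) ∧
    r5 b ≠ chevE8.negIdx.getD (chevE8.neg (chevE8.simple (nd i))) 0 := by
  decide +kernel

/-- the block of a root element -/
theorem blk_x {r : ℕ} (hr : r < chevE8.nroots) (g : chevE8.group K) (c : K)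
    (hg : (g : GL chevE8.Idx K) = Elts.xG hpE8.inList r c)
    (h1 : ∀ b : Fin 5, r5 b ≠ r ∧ r5 b ≠ chevE8.negIdx.getD r 0) {i j : Fin 5}
    (h2 : ∀ a b : Fin 5, chevE8.chainCoeff r (r5 b) (r5 a) = if i = a ∧ j = b then [(1, 1)] else []) :
    (blk 1 g).submatrix R2 R2 = Matrix.transvection i j c := by
  ext a b
  have h3 : (blk 1 g).submatrix R2 R2 a b = chevE8.xMat K ⟨r, hr⟩ c (Sum.inr ⟨r5 a, r5_lt a⟩) (Sum.inr ⟨r5 b, r5_lt b⟩) := by
    show ((g : GL chevE8.Idx K) : Matrix chevE8.Idx chevE8.Idx K) _ _ = _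
    rw [hg, ← Good.x_eq_xMat r hr]
    rfl
  rw [h3, xMat_inr_inr, if_neg (fun h => (h1 b).1 (congrArg Fin.val h)), if_neg (h1 b).2]
  show (if (⟨r5 a, r5_lt a⟩ : Fin chevE8.nroots) = ⟨r5 b, r5_lt b⟩ then (1 : K) else 0) +
    ((chevE8.chainCoeff r (r5 b) (r5 a)).map fun km => ((km.2 : ℤ) : K) * c ^ km.1).sum = _
  rw [h2]
  unfold Matrix.transvection
  rw [Matrix.add_apply, Matrix.one_apply, Matrix.single_apply]
  congr 1
  · by_cases h : a = b
    · rw [if_pos h, if_pos (by rw [h])]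
    · rw [if_neg h, if_neg]
      intro h4
      exact h (r5_inj (congrArg Fin.val h4))
  · by_cases h : i = a ∧ j = b
    · rw [if_pos h, if_pos h]
      simp
    · rw [if_neg h, if_neg h]
      simp

theorem gen_succ (i : Fin 4) (c : K) : ∃ g ∈ SA K, (blk 1 g).submatrix R2 R2 = Matrix.transvection i.succ i.castSucc c := by
  have hl := simple_lt hpE8.inList (lt_rank hpE8 (nd i))
  refine ⟨⟨Elts.xG hpE8.inList (chevE8.simple (nd i)) c, Elts.xG_mem_group hpE8.inList _ c⟩, ?_, ?_⟩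
  · refine Subgroup.mem_iSup_of_mem ⟨nd i, nd_lt i⟩ (Subgroup.mem_sup_left ?_)
    show _ ∈ (XV chevE8 8 K (sr (nd i))).subgroupOf _
    rw [XV_sr hpE8, Subgroup.mem_subgroupOf]
    exact Elts.xG_mem_rootSubgroup hpE8.inList _ c
  · exact blk_x hl _ c rfl (ne_pos i) (ch_pos i)

/-- the root element as an element of the group -/
def xgr (K : Type u) [Field K] (r : ℕ) (c : K) : chevE8.group K :=
  ⟨Elts.xG hpE8.inList r c, Elts.xG_mem_group hpE8.inList r c⟩

theorem coe_xgr (r : ℕ) (c : K) : ((xgr K r c : chevE8.group K) : GL chevE8.Idx K) = Elts.xG hpE8.inList r c := rfl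

theorem gen_pred (i : Fin 4) (c : K) : ∃ g ∈ SA K, (blk 1 g).submatrix R2 R2 = Matrix.transvection i.castSucc i.succ c := by
  have hl := simple_lt hpE8.inList (lt_rank hpE8 (nd i))
  have hn := RootVec.neg_lt hpE8.checked hl
  refine ⟨xgr K (chevE8.neg (chevE8.simple (nd i))) c, ?_, ?_⟩
  · refine Subgroup.mem_iSup_of_mem ⟨nd i, nd_lt i⟩ (Subgroup.mem_sup_right ?_)
    show _ ∈ (XV chevE8 8 K (-sr (nd i))).subgroupOf _
    rw [XV_neg_sr hpE8, Subgroup.mem_subgroupOf]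
    exact Elts.xG_mem_rootSubgroup hpE8.inList _ c
  · exact blk_x hn _ c (coe_xgr _ c) (ne_neg i) (ch_neg i)

end Cfsg.Agent.H390.L8
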